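import Mathlib.GroupTheory.PGroup
import Mathlib.GroupTheory.Sylow
import Mathlib.GroupTheory.GroupAction.ConjAct
import Mathlib.GroupTheory.Perm.Cycle.Type

/-!
# Orbits of an odd `r`-group on a 2-group (helper743)

* `exists_invol_cent` : **if an `r`-subgroup `S` of order `r ^ (j + k)` normalizes the 2-subgroup `T ≠ 1`, and
  `r ^ (j + 1)` divides no `2 ^ m - 1`, `1 ≤ m ≤ M`, `2 ^ M` the 2-part of `|G|`, then `r ^ k` divides `|C(v)|` for an
  involution `v` of `T`;**
* `card_le_of_conj` : `|S| ≤ n |C_S(x)|` if `x` has at most `n` conjugates under `S`.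
-/

set_option autoImplicit false

namespace Cfsg.Agent.H743.Wk

open Subgroup

variable {G : Type*} [Group G]

/-- the involutions of the centre of `T` and the identity -/
def omg (T : Subgroup G) : Subgroup G where
  carrier := {v | v ∈ T ∧ v * v = 1 ∧ ∀ t ∈ T, v * t = t * v}
  one_mem' := ⟨T.one_mem, one_mul 1, fun t _ => by rw [one_mul, mul_one]⟩
  mul_mem' := by
    rintro a b ⟨ha, ha2, hac⟩ ⟨hb, hb2, hbc⟩
    refine ⟨T.mul_mem ha hb, ?_, fun t ht => ?_⟩
    · calc a * b * (a * b) = a * (b * a) * b := by group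
        _ = a * (a * b) * b := by rw [hac b hb]
        _ = (a * a) * (b * b) := by group
        _ = 1 := by rw [ha2, hb2, one_mul]
    · rw [mul_assoc, hbc t ht, ← mul_assoc, hac t ht, mul_assoc]
  inv_mem' := by
    rintro a ⟨ha, ha2, hac⟩
    have h : a⁻¹ = a := inv_eq_of_mul_eq_one_left ha2
    rw [h]
    exact ⟨ha, ha2, hac⟩

theorem mem_omg {T : Subgroup G} {v : G} : v ∈ omg T ↔ v ∈ T ∧ v * v = 1 ∧ ∀ t ∈ T, v * t = t * v := Iff.rfl

theorem omg_conj {T : Subgroup G} {s : G} (hs : ∀ t ∈ T, s * t * s⁻¹ ∈ T) (hs' : ∀ t ∈ T, s⁻¹ * t * s ∈ T) :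
    ∀ v ∈ omg T, s * v * s⁻¹ ∈ omg T := by
  rintro v ⟨hv, hv2, hvc⟩
  refine ⟨hs v hv, ?_, fun t ht => ?_⟩
  · calc s * v * s⁻¹ * (s * v * s⁻¹) = s * (v * v) * s⁻¹ := by group
      _ = 1 := by rw [hv2]; group
  · calc s * v * s⁻¹ * t = s * (v * (s⁻¹ * t * s)) * s⁻¹ := by group
      _ = s * ((s⁻¹ * t * s) * v) * s⁻¹ := by rw [hvc _ (hs' t ht)]
      _ = t * (s * v * s⁻¹) := by group

theorem omg_ne [Finite G] {T : Subgroup G} (hT : IsPGroup 2 T) (hT1 : T ≠ ⊥) : omg T ≠ ⊥ := by
  have : Fact (Nat.Prime 2) := ⟨Nat.prime_two⟩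
  have : Nontrivial T := (nontrivial_iff_ne_bot T).2 hT1
  have hc := hT.center_nontrivial
  obtain ⟨n, hn⟩ := IsPGroup.iff_card.1 (hT.to_subgroup (center T))
  have h1 : 1 < Nat.card (center T) := Finite.one_lt_card
  have h2 : 2 ∣ Nat.card (center T) := by
    rw [hn] at h1 ⊢
    cases n with
    | zero => simp at h1
    | succ n => exact Dvd.intro_left _ rfl
  obtain ⟨z, hz⟩ := exists_prime_orderOf_dvd_card' 2 h2
  have hz1 : orderOf (((z : T) : G)) = 2 := by rw [Subgroup.orderOf_coe, Subgroup.orderOf_coe, hz]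
  intro h
  have h3 : ((z : T) : G) ∈ omg T := by
    refine ⟨(z : T).2, ?_, fun t ht => ?_⟩
    · rw [← pow_two, ← hz1, pow_orderOf_eq_one]
    · exact (congrArg Subtype.val (mem_center_iff.1 z.2 ⟨t, ht⟩)).symm
  rw [h, mem_bot] at h3
  rw [h3, orderOf_one] at hz1
  omega

/-- conjugation of `S` on the nontrivial elements of `V` -/
@[instance_reducible]
def conjAct {S V : Subgroup G} (hn : ∀ s ∈ S, ∀ v ∈ V, s * v * s⁻¹ ∈ V) : MulAction S {v : G // v ∈ V ∧ v ≠ 1} where
  smul s v := ⟨s * v * (s : G)⁻¹, hn s s.2 v v.2.1, fun h => v.2.2 (by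
    have : (v : G) = (s : G)⁻¹ * (s * v * (s : G)⁻¹) * s := by group
    rw [this, h]
    group)⟩
  one_smul v := Subtype.ext (by show (1 : G) * v * (1 : G)⁻¹ = v; group)
  mul_smul s t v := Subtype.ext (by show ((s : G) * t) * v * ((s : G) * t)⁻¹ = s * (t * v * (t : G)⁻¹) * (s : G)⁻¹; group)

/-- **An involution with a large centralizer.** -/
theorem exists_invol_cent [Finite G] {T S : Subgroup G} (hT : IsPGroup 2 T) (hT1 : T ≠ ⊥)
    (hn : ∀ s ∈ S, ∀ t ∈ T, s * t * s⁻¹ ∈ T) {r j k M : ℕ} (hr : r.Prime) (hS : Nat.card S = r ^ (j + k))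
    (hM : ¬ 2 ^ (M + 1) ∣ Nat.card G) (h : ∀ m, 1 ≤ m → m ≤ M → ¬ r ^ (j + 1) ∣ 2 ^ m - 1) :
    ∃ v ∈ T, orderOf v = 2 ∧ r ^ k ∣ Nat.card (centralizer ({v} : Set G)) := by
  classical
  have : Fact (Nat.Prime 2) := ⟨Nat.prime_two⟩
  obtain ⟨V, hVd⟩ : ∃ V, V = omg T := ⟨_, rfl⟩
  have hVT : V ≤ T := fun v hv => by rw [hVd] at hv; exact hv.1
  have hV1 : V ≠ ⊥ := by rw [hVd]; exact omg_ne hT hT1
  have hV2 : ∀ v ∈ V, v * v = 1 := fun v hv => by rw [hVd] at hv; exact hv.2.1
  have hVS : ∀ s ∈ S, ∀ v ∈ V, s * v * s⁻¹ ∈ V := by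
    intro s hs
    rw [hVd]
    refine omg_conj (hn s hs) fun t ht => ?_
    have := hn s⁻¹ (S.inv_mem hs) t ht
    rwa [inv_inv] at this
  obtain ⟨m, hm⟩ := IsPGroup.iff_card.1 (hT.to_le hVT)
  have hm1 : 1 ≤ m := by
    by_contra hm0
    have : m = 0 := by omega
    rw [this, pow_zero] at hm
    exact hV1 (Subgroup.eq_bot_of_card_eq _ hm)
  have hmM : m ≤ M := by
    by_contra hmM
    apply hM
    refine (pow_dvd_pow 2 (show M + 1 ≤ m by omega)).trans ?_
    rw [← hm]
    exact card_subgroup_dvd_card V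
  let X := {v : G // v ∈ V ∧ v ≠ 1}
  have hX : Nat.card X + 1 = 2 ^ m := by
    have h1 : Nat.card V = Nat.card X + 1 := by
      rw [← Finite.card_option]
      refine Nat.card_congr ⟨fun v => if hv : (v : G) = 1 then none else some ⟨v, v.2, hv⟩,
        fun o => o.elim 1 fun v => ⟨v.1, v.2.1⟩, ?_, ?_⟩
      · intro v
        by_cases hv : (v : G) = 1
        · simp only [hv, dite_true, Option.elim_none]
          exact Subtype.ext hv.symm
        · simp only [hv, dite_false, Option.elim_some]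
      · intro o
        cases o with
        | none => simp
        | some v =>
          have hv := v.2.2
          show (if hv : (v : G) = 1 then none else some (⟨v, v.2.1, hv⟩ : X)) = some v
          rw [dif_neg hv]
    rw [← h1, hm]
  let _ : MulAction S X := conjAct hVS
  by_contra hcon
  have key : ∀ v : X, r ^ (j + 1) ∣ Nat.card (MulAction.orbit S v) := by
    intro v
    have ho' : Nat.card (MulAction.orbit S v) * Nat.card (MulAction.stabilizer S v) = r ^ (j + k) := by
      rw [← hS, Nat.card_congr (MulAction.orbitEquivQuotientStabilizer S v), mul_comm]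
      exact (MulAction.stabilizer S v).card_mul_index
    obtain ⟨i, hi, hi2⟩ := (Nat.dvd_prime_pow hr).1 (Dvd.intro _ ho')
    rw [hi2]
    apply pow_dvd_pow
    by_contra hij
    apply hcon
    refine ⟨v, hVT v.2.1, ?_, ?_⟩
    · exact orderOf_eq_prime (by rw [pow_two]; exact hV2 v v.2.1) v.2.2
    · have h3 : Nat.card (MulAction.stabilizer S v) = r ^ (j + k - i) := by
        have h4 : r ^ i * Nat.card (MulAction.stabilizer S v) = r ^ i * r ^ (j + k - i) := by
          rw [← pow_add, ← hi2, ho']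
          congr 1
          omega
        exact Nat.eq_of_mul_eq_mul_left (pow_pos hr.pos i) h4
      have h4 : r ^ k ∣ Nat.card (MulAction.stabilizer S v) := by
        rw [h3]
        exact pow_dvd_pow r (by omega)
      refine h4.trans ?_
      have h5 : Nat.card ((MulAction.stabilizer S v).map S.subtype) = Nat.card (MulAction.stabilizer S v) :=
        card_map_of_injective S.subtype_injective
      rw [← h5]
      apply card_dvd_of_le
      rintro _ ⟨s, hs, rfl⟩
      rw [mem_centralizer_singleton_iff]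
      have h6 : (s : G) * v * (s : G)⁻¹ = v := congrArg Subtype.val (MulAction.mem_stabilizer_iff.1 hs)
      exact mul_inv_eq_iff_eq_mul.1 h6
  refine h m hm1 hmM ?_
  have h1 : 2 ^ m - 1 = Nat.card X := by omega
  have := Fintype.ofFinite (MulAction.orbitRel.Quotient S X)
  rw [h1, Nat.card_congr (MulAction.selfEquivSigmaOrbits S X), Nat.card_sigma]
  exact Finset.dvd_sum fun ω _ => key ω.out

/-- if at most `n` conjugates of `x` under `S` exist, then `|S| ≤ n |C_S(x)|` -/
theorem card_le_of_conj [Finite G] {S : Subgroup G} {x : G} (hx : x ≠ 1) {F : Finset G}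
    (hF : ∀ s ∈ S, s * x * s⁻¹ ∈ F) :
    Nat.card S ≤ F.card * Nat.card (S ⊓ centralizer ({x} : Set G) : Subgroup G) := by
  have hn : ∀ s ∈ S, ∀ v ∈ (⊤ : Subgroup G), s * v * s⁻¹ ∈ (⊤ : Subgroup G) := fun _ _ _ _ => mem_top _
  let X := {v : G // v ∈ (⊤ : Subgroup G) ∧ v ≠ 1}
  let _ : MulAction S X := conjAct hn
  obtain ⟨v, hv⟩ : ∃ v : X, (v : G) = x := ⟨⟨x, mem_top x, hx⟩, rfl⟩
  have ho : Nat.card (MulAction.orbit S v) * Nat.card (MulAction.stabilizer S v) = Nat.card S := by
    rw [Nat.card_congr (MulAction.orbitEquivQuotientStabilizer S v), mul_comm]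
    exact (MulAction.stabilizer S v).card_mul_index
  have h1 : Nat.card (MulAction.orbit S v) ≤ F.card := by
    have hmem : ∀ w ∈ MulAction.orbit S v, (w : G) ∈ F := by
      rintro w ⟨s, rfl⟩
      have := hF s s.2
      rw [← hv] at this
      exact this
    rw [← Fintype.card_coe, ← Nat.card_eq_fintype_card]
    refine Nat.card_le_card_of_injective
      (fun w : MulAction.orbit S v => (⟨(w : X), hmem w w.2⟩ : {g : G // g ∈ F})) fun a b hab => ?_
    exact Subtype.ext (Subtype.ext (congrArg (fun z : {g : G // g ∈ F} => (z : G)) hab))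
  have h2 : Nat.card (MulAction.stabilizer S v) ≤ Nat.card (S ⊓ centralizer ({x} : Set G) : Subgroup G) := by
    have h5 : Nat.card ((MulAction.stabilizer S v).map S.subtype) = Nat.card (MulAction.stabilizer S v) :=
      card_map_of_injective S.subtype_injective
    rw [← h5]
    apply Nat.le_of_dvd Nat.card_pos
    apply card_dvd_of_le
    rintro _ ⟨s, hs, rfl⟩
    refine ⟨s.2, ?_⟩
    show (s : G) ∈ centralizer ({x} : Set G)
    rw [mem_centralizer_singleton_iff, ← hv]
    have h6 : (s : G) * v * (s : G)⁻¹ = v := congrArg Subtype.val (MulAction.mem_stabilizer_iff.1 hs)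
    exact mul_inv_eq_iff_eq_mul.1 h6
  rw [← ho]
  exact Nat.mul_le_mul h1 h2

end Cfsg.Agent.H743.Wk
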